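import Groth.Agent.Ega2.H286.NormLE
import Groth.Agent.Ega2.BasSec

/-!
# Local existence of the characteristic polynomial: `g_* O_X'` locally free
-/

set_option autoImplicit false
universe u

open CategoryTheory CategoryTheory.Limits AlgebraicGeometry TopologicalSpace Opposite Polynomial

namespace Groth.Agent.Ega2.H286.FreeCp

open Groth.Agent.Fdesc.LocGen Groth.Agent.Ega2.H286.GenPts Groth.Agent.Ega2.H286.PushStalk
open Groth.Agent.Ega2.H286.NormPt Groth.Agent.Ega2.H286.NormLE Groth.Agent.Ega2.BasSec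
open Groth.Agent.Ega2.H286.NormInt Groth.Agent.Ega2.H286.CpBase

variable {X X' : Scheme.{u}} (g : X' ⟶ X)

/-- `e` is a basis of `g_* O_X'` over `U` (and over every smaller open). -/
def IsB {n : ℕ} {U : X.Opens} (e : Fin n → Γ(X', g ⁻¹ᵁ U)) : Prop :=
  ∀ (V : X.Opens) (h : V ≤ U), Function.Bijective
    (fun a : Fin n → Γ(X, V) ↦ ∑ i, (g.app V).hom (a i) * rs g h (e i))

theorem isB_of_isBas {n : ℕ} {U : X.Opens} {e : Fin n → Γ((Coh.push g).obj (Coh.structureModule X'), U)}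
    (he : IsBas e) : IsB g (U := U) (fun i ↦ (ofFun (X := X') (U := g ⁻¹ᵁ U)).symm (e i)) := by
  intro V h
  have h1 := he V h
  have h2 : ∀ a : Fin n → Γ(X, V),
      comb (fun i ↦ res ((Coh.push g).obj (Coh.structureModule X')) h (e i)) a =
      ofFun (X := X') (U := g ⁻¹ᵁ V) (∑ i, (g.app V).hom (a i) * rs g h ((ofFun (X := X') (U := g ⁻¹ᵁ U)).symm (e i))) := by
    intro a
    rw [map_sum]
    rfl
  have h3 : (fun a : Fin n → Γ(X, V) ↦ ∑ i, (g.app V).hom (a i) *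
      rs g h ((ofFun (X := X') (U := g ⁻¹ᵁ U)).symm (e i))) =
      (ofFun (X := X') (U := g ⁻¹ᵁ V)).symm ∘
        comb (X := X) (V := V) (M := (Coh.push g).obj (Coh.structureModule X'))
          (fun i ↦ res ((Coh.push g).obj (Coh.structureModule X')) h (e i)) := by
    funext a
    rw [Function.comp_apply, h2, AddEquiv.symm_apply_apply]
  rw [h3]
  exact (ofFun (X := X') (U := g ⁻¹ᵁ V)).symm.bijective.comp h1

theorem exists_isB {T : X.Opens} {x : X} (hx : x ∈ T)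
    (h : FlatMod.IsFinLocFree (((Coh.push g).obj (Coh.structureModule X')).restrict T.ι)) :
    ∃ (U : X.Opens) (_ : U ≤ T) (_ : x ∈ U) (n : ℕ) (e : Fin n → Γ(X', g ⁻¹ᵁ U)), IsB g e := by
  obtain ⟨U, n, hxU, ⟨φ⟩⟩ := h ⟨x, hx⟩
  obtain ⟨e, he⟩ := (nonempty_restrict_iso_freeMod_iff _ n U).1 ⟨φ⟩
  have h1 : IsBas (fun i => (toRestrict (M := (Coh.push g).obj (Coh.structureModule X')) T.ι (U := U)).symm (e i)) := by
    rw [← isBas_toRestrict_iff]
    have h2 : (fun i => toRestrict (M := (Coh.push g).obj (Coh.structureModule X')) T.ι (U := U)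
      ((toRestrict (M := (Coh.push g).obj (Coh.structureModule X')) T.ι (U := U)).symm (e i))) = e :=
      funext fun i ↦ AddEquiv.apply_symm_apply _ _
    rw [h2]
    exact he
  refine ⟨T.ι ''ᵁ U, ?_, ?_, n, _, isB_of_isBas g h1⟩
  · rintro _ ⟨y, _, rfl⟩
    exact y.2
  · exact ⟨⟨x, hx⟩, hxU, rfl⟩

variable {g}

theorem IsB.rs {n : ℕ} {U V : X.Opens} {e : Fin n → Γ(X', g ⁻¹ᵁ U)} (he : IsB g e) (h : V ≤ U) :
    IsB g (fun i ↦ PushStalk.rs g h (e i)) := by
  intro W hW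
  have h1 := he W (hW.trans h)
  simpa only [ores_ores] using h1

/-- The basis of sections. -/
theorem IsB.exists_basis {n : ℕ} {U : X.Opens} {e : Fin n → Γ(X', g ⁻¹ᵁ U)} (he : IsB g e) :
    letI := (g.app U).hom.toAlgebra
    ∃ B : Module.Basis (Fin n) Γ(X, U) Γ(X', g ⁻¹ᵁ U), ∀ i, B i = e i := by
  let _ := (g.app U).hom.toAlgebra
  have h1 : ∀ a : Fin n → Γ(X, U), ∑ i, a i • e i = ∑ i, (g.app U).hom (a i) * PushStalk.rs g le_rfl (e i) := by
    intro a
    refine Finset.sum_congr rfl fun i _ ↦ ?_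
    rw [show PushStalk.rs g le_rfl (e i) = e i from ores_refl _]
    rfl
  refine ⟨Module.Basis.mk (v := e)
    (by
      rw [Fintype.linearIndependent_iff]
      intro a ha
      have h2 : a = 0 := (he U le_rfl).1 (by
        change ∑ i, (g.app U).hom (a i) * _ = ∑ i, (g.app U).hom ((0 : Fin n → Γ(X, U)) i) * _
        rw [← h1, ha]
        simp)
      intro i
      rw [h2]; rfl)
    (by
      intro b _
      obtain ⟨a, ha⟩ := (he U le_rfl).2 b
      rw [← ha]
      change ∑ i, (g.app U).hom (a i) * _ ∈ _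
      rw [← h1]
      exact Submodule.sum_mem _ fun i _ ↦ Submodule.smul_mem _ _ (Submodule.subset_span ⟨i, rfl⟩)),
    fun i ↦ Module.Basis.mk_apply _ _ i⟩

/-- The germs of a basis of sections form a basis. -/
theorem IsB.exists_basisStalk {n : ℕ} {U : X.Opens} {e : Fin n → Γ(X', g ⁻¹ᵁ U)} (he : IsB g e)
    {x : X} (hx : x ∈ U) :
    letI := (κ g x).toAlgebra
    ∃ B : Module.Basis (Fin n) (X.presheaf.stalk x) (Est g x), ∀ i, B i = ρ g hx (e i) := by
  let _ := (κ g x).toAlgebra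
  have h1 : ∀ (W : X.Opens) (hW : W ≤ U) (hxW : x ∈ W) (a : Fin n → Γ(X, W)),
      ∑ i, gm hxW (a i) • ρ g hx (e i) = ρ g hxW (∑ i, (g.app W).hom (a i) * PushStalk.rs g hW (e i)) := by
    intro W hW hxW a
    rw [map_sum]
    refine Finset.sum_congr rfl fun i _ ↦ ?_
    rw [map_mul, ρ_rs, ← κ_gm]
    rfl
  refine ⟨Module.Basis.mk (v := fun i ↦ ρ g hx (e i))
    (by
      rw [Fintype.linearIndependent_iff]
      intro c hc
      obtain ⟨W, hW, hxW, a, ha⟩ := exists_lift_finite hx c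
      have h2 : ρ g hxW (∑ i, (g.app W).hom (a i) * PushStalk.rs g hW (e i)) = ρ g hxW 0 := by
        rw [← h1 W hW hxW, map_zero, ← hc]
        exact Finset.sum_congr rfl fun i _ ↦ by rw [ha]
      obtain ⟨W', hW', hxW', h3⟩ := exists_rs_eq g hxW h2
      have h4 : (fun i ↦ ores hW' (a i)) = (0 : Fin n → Γ(X, W')) := (he W' (hW'.trans hW)).1 (by
        change ∑ i, (g.app W').hom (ores hW' (a i)) * PushStalk.rs g (hW'.trans hW) (e i) =
          ∑ i, (g.app W').hom ((0 : Fin n → Γ(X, W')) i) * _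
        rw [map_zero, map_sum] at h3
        rw [← Finset.sum_congr rfl (fun i _ ↦ ?_), h3]
        · simp
        · rw [map_mul, ores_ores]
          congr 1
          exact congr($(g.naturality (homOfLE hW').op) (a i)).symm)
      intro i
      rw [← ha, ← gm_ores hW' hxW', congrFun h4 i]
      exact map_zero _)
    (by
      intro b _
      obtain ⟨W, hW, hxW, c, rfl⟩ := exists_ρ_eq g U hx b
      obtain ⟨a, ha⟩ := (he W hW).2 c
      rw [← ha]
      change ρ g hxW (∑ i, (g.app W).hom (a i) * _) ∈ _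
      rw [← h1]
      exact Submodule.sum_mem _ fun i _ ↦ Submodule.smul_mem _ _ (Submodule.subset_span ⟨i, rfl⟩)),
    fun i ↦ Module.Basis.mk_apply _ _ i⟩

variable (g) [IsFinite g] [IsReduced X]

theorem hasCp_of_free {V : X.Opens} (b : Γ(X', g ⁻¹ᵁ V)) {x : X} (hx : x ∈ V) {T : X.Opens} (hxT : x ∈ T)
    (h : FlatMod.IsFinLocFree (((Coh.push g).obj (Coh.structureModule X')).restrict T.ι)) : HasCp g b x := by
  obtain ⟨U, hUT, hxU, n, e, he⟩ := exists_isB g hxT h
  have he' : IsB g (fun i ↦ PushStalk.rs g (inf_le_left : U ⊓ V ≤ U) (e i)) := he.rs _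
  let _ := (g.app (U ⊓ V)).hom.toAlgebra
  obtain ⟨B, hB⟩ := he'.exists_basis
  have hfin : Module.Finite Γ(X, U ⊓ V) Γ(X', g ⁻¹ᵁ (U ⊓ V)) := Module.Finite.of_basis B
  have hfree : Module.Free Γ(X, U ⊓ V) Γ(X', g ⁻¹ᵁ (U ⊓ V)) := Module.Free.of_basis B
  refine ⟨U ⊓ V, inf_le_right, ⟨hxU, hx⟩, cp Γ(X, U ⊓ V) Γ(X', g ⁻¹ᵁ (U ⊓ V))
    (PushStalk.rs g inf_le_right b), LinearMap.charpoly_monic _, ?_⟩
  intro m hmW hm
  let _ := (κ g m).toAlgebra
  have : Module.Finite (X.presheaf.stalk m) (Est g m) := finite_κ g m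
  have : Module.Free (X.presheaf.stalk m) (Est g m) := free_κ g hm
  obtain ⟨B', hB'⟩ := he'.exists_basisStalk hmW
  have h1 := cp_map (A := Γ(X, U ⊓ V)) (B := Γ(X', g ⁻¹ᵁ (U ⊓ V))) (K := X.presheaf.stalk m) (E := Est g m)
    (gm hmW) (ρ g hmW) (by
      ext a
      exact (κ_gm g hmW a).symm) B B'
    (fun i ↦ by rw [hB, hB']) (PushStalk.rs g inf_le_right b)
  rw [ρ_rs] at h1
  exact h1.symm

end Groth.Agent.Ega2.H286.FreeCp
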