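import Groth.Agent.Ega2.H286.NormInt

/-!
# Base change of the characteristic polynomial, in terms of bases
-/

set_option autoImplicit false

namespace Groth.Agent.Ega2.H286.CpBase

open Polynomial Module Groth.Agent.Ega2.H286.NormInt

/-- If a basis of `B` over `A` is carried to a basis of `E` over `K` then the characteristic polynomials correspond. -/
theorem cp_map {A B K E ι : Type*} [Fintype ι] [CommRing A] [CommRing B] [Algebra A B] [CommRing K] [CommRing E]
    [Algebra K E] [Module.Finite A B] [Module.Free A B] [Module.Finite K E] [Module.Free K E]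
    (φ : A →+* K) (ρ : B →+* E) (h : ρ.comp (algebraMap A B) = (algebraMap K E).comp φ)
    (eB : Basis ι A B) (eE : Basis ι K E) (he : ∀ i, ρ (eB i) = eE i) (b : B) :
    cp K E (ρ b) = (cp A B b).map φ := by
  classical
  nontriviality K
  haveI := φ.domain_nontrivial
  have h0 : ∀ a, ρ (algebraMap A B a) = algebraMap K E (φ a) := fun a ↦ RingHom.congr_fun h a
  have h1 : ∀ x : B, ∀ i, eE.repr (ρ x) i = φ (eB.repr x i) := by
    intro x i
    have h2 : ρ x = ∑ j, φ (eB.repr x j) • eE j := by
      conv_lhs => rw [← eB.sum_repr x]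
      rw [map_sum]
      refine Finset.sum_congr rfl fun j _ ↦ ?_
      rw [Algebra.smul_def, map_mul, h0, he, Algebra.smul_def]
    rw [h2, eE.repr_sum_self]
  rw [cp, cp, ← LinearMap.charpoly_toMatrix _ eE, ← LinearMap.charpoly_toMatrix _ eB, ← Matrix.charpoly_map]
  congr 1
  ext i j
  simp only [LinearMap.toMatrix_apply, RingHom.mapMatrix_apply, Matrix.map_apply]
  rw [← h1, ← he j]
  congr 2
  simp [map_mul]

end Groth.Agent.Ega2.H286.CpBase
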