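import Mathlib.AlgebraicGeometry.Noetherian
import Mathlib.AlgebraicGeometry.Stalk
import Mathlib.AlgebraicGeometry.Morphisms.Flat
import Mathlib.RingTheory.Flat.TorsionFree
import Mathlib.Topology.Sober
import Groth.Agent.Fdesc.LocGen

/-!
# Maximal points of a reduced scheme

`IsMP y`: `y` has no proper generization.
-/

set_option autoImplicit false
universe u

open CategoryTheory CategoryTheory.Limits AlgebraicGeometry TopologicalSpace Opposite

namespace Groth.Agent.Ega2.H286.GenPts

open Groth.Agent.Fdesc.LocGen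

/-- `y` is a maximal point: it has no proper generization. -/
def IsMP {X : Scheme.{u}} (y : X) : Prop := ∀ y' : X, y' ⤳ y → y' = y

variable {X : Scheme.{u}}

theorem exists_isMP (x : X) : ∃ m : X, m ⤳ x ∧ IsMP m := by
  have hirr : IsIrreducible (irreducibleComponent x) := isIrreducible_irreducibleComponent
  obtain ⟨m, hm⟩ := QuasiSober.sober hirr isClosed_irreducibleComponent
  refine ⟨m, hm.specializes mem_irreducibleComponent, ?_⟩
  intro m' hm'
  have h1 : irreducibleComponent x ⊆ closure {m'} := by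
    rw [← hm.def]
    exact closure_minimal (Set.singleton_subset_iff.2 (specializes_iff_mem_closure.1 hm'))
      isClosed_closure
  have h2 : closure {m'} ⊆ irreducibleComponent x := by
    have := eq_irreducibleComponent (isIrreducible_singleton (x := m')).closure.isPreirreducible h1
    exact this.le
  have h3 : IsGenericPoint m' (irreducibleComponent x) := h2.antisymm h1
  exact h3.eq hm

theorem closure_mem_of_isMP {m : X} (hm : IsMP m) : closure {m} ∈ irreducibleComponents X := by
  have hirr : IsIrreducible (irreducibleComponent m) := isIrreducible_irreducibleComponent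
  obtain ⟨m', hm'⟩ := QuasiSober.sober hirr isClosed_irreducibleComponent
  have h1 : m' = m := hm m' (hm'.specializes mem_irreducibleComponent)
  subst h1
  rw [hm'.def]
  exact irreducibleComponent_mem_irreducibleComponents _

theorem finite_isMP [NoetherianSpace X] : {m : X | IsMP m}.Finite := by
  refine (genericPoints.finite (α := X) NoetherianSpace.finite_irreducibleComponents).subset ?_
  intro m hm
  exact closure_mem_of_isMP hm

/-- The germ of a function. -/
noncomputable def gm {V : X.Opens} {x : X} (hx : x ∈ V) : Γ(X, V) →+* X.presheaf.stalk x :=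
  (X.presheaf.germ V x hx).hom

theorem gm_ores {V W : X.Opens} (h : W ≤ V) {x : X} (hx : x ∈ W) (a : Γ(X, V)) :
    gm hx (ores h a) = gm (h hx) a :=
  X.presheaf.germ_res_apply (homOfLE h) _ hx a

theorem exists_gm_eq (U : X.Opens) {x : X} (hx : x ∈ U) (e : X.presheaf.stalk x) :
    ∃ (V : X.Opens) (_ : V ≤ U) (hxV : x ∈ V) (a : Γ(X, V)), gm hxV a = e := by
  obtain ⟨V, hxV, a, ha⟩ := X.presheaf.exists_germ_eq e
  refine ⟨V ⊓ U, inf_le_right, ⟨hxV, hx⟩, ores inf_le_left a, ?_⟩
  rw [gm_ores]
  exact ha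

theorem exists_ores_eq {V : X.Opens} {x : X} (hx : x ∈ V) {a b : Γ(X, V)} (h : gm hx a = gm hx b) :
    ∃ (W : X.Opens) (hW : W ≤ V), x ∈ W ∧ ores hW a = ores hW b := by
  obtain ⟨W, hxW, i, j, hij⟩ := X.presheaf.germ_eq x hx hx a b h
  exact ⟨W, i.le, hxW, hij⟩

theorem gm_eq_of_forall {V : X.Opens} {a b : Γ(X, V)} (h : ∀ x (hx : x ∈ V), gm hx a = gm hx b) : a = b := by
  choose W hW hxW hab using fun x : V ↦ exists_ores_eq x.2 (h x.1 x.2)
  exact ores_ext W hW (fun x hx ↦ Opens.mem_iSup.2 ⟨⟨x, hx⟩, hxW ⟨x, hx⟩⟩) hab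

/-- The generization map of local rings. -/
noncomputable def sp {m x : X} (h : m ⤳ x) : X.presheaf.stalk x →+* X.presheaf.stalk m :=
  (X.presheaf.stalkSpecializes h).hom

theorem mem_of_specializes {V : X.Opens} {m x : X} (h : m ⤳ x) (hx : x ∈ V) : m ∈ V :=
  h.mem_open V.isOpen hx

theorem sp_gm {V : X.Opens} {m x : X} (h : m ⤳ x) (hx : x ∈ V) (a : Γ(X, V)) :
    sp h (gm hx a) = gm (mem_of_specializes h hx) a :=
  X.presheaf.germ_stalkSpecializes_apply hx h a

theorem isUnit_gm_iff {V : X.Opens} {x : X} (hx : x ∈ V) (a : Γ(X, V)) :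
    IsUnit (gm hx a) ↔ x ∈ X.basicOpen a :=
  (X.mem_basicOpen a x hx).symm

/-- The local ring at a maximal point of a reduced scheme is a field. -/
theorem isField_stalk [IsReduced X] {η : X} (hη : IsMP η) : IsField (X.presheaf.stalk η) := by
  have hu : ∀ p : PrimeSpectrum (X.presheaf.stalk η), p = IsLocalRing.closedPoint _ := by
    intro p
    have h1 : (X.fromSpecStalk η) p ∈ Set.range (X.fromSpecStalk η) := ⟨p, rfl⟩
    rw [Scheme.range_fromSpecStalk] at h1
    have h2 := hη _ h1
    apply (X.fromSpecStalk η).isEmbedding.injective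
    rw [h2, Scheme.fromSpecStalk_closedPoint]
  have h3 : IsLocalRing.maximalIdeal (X.presheaf.stalk η) = ⊥ := by
    rw [eq_bot_iff]
    intro a ha
    have h4 : a ∈ nilradical (X.presheaf.stalk η) := by
      rw [nilradical_eq_sInf, Submodule.mem_sInf]
      intro p hp
      have := hu ⟨p, hp⟩
      have h5 : p = IsLocalRing.maximalIdeal (X.presheaf.stalk η) := congrArg PrimeSpectrum.asIdeal this
      rw [h5]; exact ha
    rw [nilradical_eq_zero] at h4
    exact h4
  exact (IsLocalRing.isField_iff_maximalIdeal_eq).2 h3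

/-- A function on a reduced scheme vanishes if its germs at the maximal points vanish. -/
theorem eq_zero_of_forall_isMP [IsReduced X] {V : X.Opens} {a : Γ(X, V)}
    (h : ∀ m (hm : m ∈ V), IsMP m → gm hm a = 0) : a = 0 := by
  have h1 : X.basicOpen a = ⊥ := by
    rw [eq_bot_iff]
    intro x hx
    obtain ⟨m, hmx, hm⟩ := exists_isMP x
    have hmV : m ∈ V := mem_of_specializes hmx (X.basicOpen_le a hx)
    have h2 : m ∈ X.basicOpen a := mem_of_specializes hmx hx
    rw [← isUnit_gm_iff hmV, h m hmV hm] at h2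
    exact (not_isUnit_zero h2).elim
  exact (basicOpen_eq_bot_iff a).1 h1

theorem eq_of_forall_isMP [IsReduced X] {V : X.Opens} {a b : Γ(X, V)}
    (h : ∀ m (hm : m ∈ V), IsMP m → gm hm a = gm hm b) : a = b := by
  rw [← sub_eq_zero]
  refine eq_zero_of_forall_isMP fun m hm hmp ↦ ?_
  rw [map_sub, h m hm hmp, sub_self]

/-- Elements of the local ring as fractions of sections over an affine open. -/
theorem exists_gm_mul_eq {V : X.Opens} (hV : IsAffineOpen V) {x : X} (hx : x ∈ V) (e : X.presheaf.stalk x) :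
    ∃ a s : Γ(X, V), IsUnit (gm hx s) ∧ e * gm hx s = gm hx a := by
  let _ := X.presheaf.algebra_section_stalk (U := V) ⟨x, hx⟩
  have := hV.isLocalization_stalk ⟨x, hx⟩
  obtain ⟨⟨a, s⟩, h⟩ := IsLocalization.surj (M := (hV.primeIdealOf ⟨x, hx⟩).asIdeal.primeCompl) e
  exact ⟨a, s, IsLocalization.map_units (M := (hV.primeIdealOf ⟨x, hx⟩).asIdeal.primeCompl)
    (X.presheaf.stalk x) s, h⟩

theorem flat_of_comp_mono {X Y Z : Scheme.{u}} (f : X ⟶ Y) (g : Y ⟶ Z) [Mono g] [Flat (f ≫ g)] : Flat f := by
  have h : IsPullback f (𝟙 X) g (f ≫ g) := by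
    refine IsPullback.of_isLimit (PullbackCone.IsLimit.mk (by simp) (fun s => s.snd) ?_ ?_ ?_)
    · intro s
      rw [← cancel_mono g, Category.assoc, s.condition]
    · intro s; simp
    · intro s m _ h2; simpa using h2
  exact MorphismProperty.of_isPullback (P := @Flat) h.flip ‹_›

theorem flat_sp {m x : X} (h : m ⤳ x) : (sp h).Flat := by
  have hf : ∀ y : X, Flat (X.fromSpecStalk y) := fun y ↦ by
    obtain ⟨_, ⟨U, hU, rfl⟩, hxU, -⟩ :=
      X.isBasis_affineOpens.exists_subset_of_mem_open (Set.mem_univ y) isOpen_univ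
    rw [← hU.fromSpecStalk_eq_fromSpecStalk hxU, IsAffineOpen.fromSpecStalk]
    have h1 : Flat (Spec.map (X.presheaf.germ U y hxU)) := by
      rw [Flat.SpecMap_iff]
      let : Algebra Γ(X, U) (X.presheaf.stalk y) := (X.presheaf.germ U y hxU).hom.toAlgebra
      have := hU.isLocalization_stalk ⟨y, hxU⟩
      exact IsLocalization.flat (X.presheaf.stalk y) (hU.primeIdealOf ⟨y, hxU⟩).asIdeal.primeCompl
    infer_instance
  have h1 : Flat (Spec.map (X.presheaf.stalkSpecializes h)) := by
    have h2 : Flat (Spec.map (X.presheaf.stalkSpecializes h) ≫ X.fromSpecStalk x) := by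
      rw [Scheme.SpecMap_stalkSpecializes_fromSpecStalk]
      exact hf m
    exact flat_of_comp_mono _ (X.fromSpecStalk x)
  rwa [Flat.SpecMap_iff] at h1

/-- If `O_x` is a domain then the generization map to a maximal point is injective. -/
theorem sp_injective {m x : X} (h : m ⤳ x) [IsDomain (X.presheaf.stalk x)] (hm : IsField (X.presheaf.stalk m)) :
    Function.Injective (sp h) := by
  let _ := hm.toField
  have h1 := flat_sp h
  algebraize [sp h]
  exact Module.isTorsionFree_iff_algebraMap_injective.1 inferInstance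

/-- If `O_x` is a domain then `O_m = Frac(O_x)` for a maximal point `m` generizing `x`. -/
theorem isFractionRing {m x : X} (h : m ⤳ x) [IsDomain (X.presheaf.stalk x)]
    (hm : IsField (X.presheaf.stalk m)) :
    @IsFractionRing (X.presheaf.stalk x) _ (X.presheaf.stalk m) _ (sp h).toAlgebra := by
  let _ := (sp h).toAlgebra
  have hinj := sp_injective h hm
  obtain ⟨V, hV, hxV, -⟩ := exists_isAffineOpen_mem_and_subset (x := x) (U := ⊤) trivial
  refine ⟨?_, ?_, ?_⟩
  · rintro ⟨y, hy⟩
    have h1 : sp h y ≠ 0 := fun h2 ↦ nonZeroDivisors.ne_zero hy (hinj (by rw [h2, map_zero]))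
    obtain ⟨z, hz⟩ := hm.mul_inv_cancel h1
    exact IsUnit.of_mul_eq_one z hz
  · intro e
    obtain ⟨a, s, hs, hes⟩ := exists_gm_mul_eq hV (mem_of_specializes h hxV) e
    have h0 : gm hxV s ≠ 0 := by
      intro h0
      rw [← sp_gm h hxV, h0, map_zero] at hs
      let _ := hm.toField
      exact not_isUnit_zero hs
    refine ⟨⟨gm hxV a, ⟨gm hxV s, mem_nonZeroDivisors_of_ne_zero h0⟩⟩, ?_⟩
    change e * sp h (gm hxV s) = sp h (gm hxV a)
    rw [sp_gm, sp_gm, hes]
  · intro a b hab
    exact ⟨1, by rw [hinj hab]⟩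

/-- If `O_x` is a domain then `x` has only one generization which is a maximal point. -/
theorem isMP_unique [IsReduced X] {m m' x : X} (h : m ⤳ x) (h' : m' ⤳ x) (hm : IsMP m) (hm' : IsMP m')
    [IsDomain (X.presheaf.stalk x)] : m = m' := by
  have h1 : (X.fromSpecStalk x) ⟨⊥, Ideal.isPrime_bot⟩ ⤳ m := by
    obtain ⟨p, hp⟩ : m ∈ Set.range (X.fromSpecStalk x) := by rw [Scheme.range_fromSpecStalk]; exact h
    rw [← hp]
    refine Specializes.map ?_ (X.fromSpecStalk x).continuous
    exact (PrimeSpectrum.le_iff_specializes _ _).1 bot_le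
  have h2 : (X.fromSpecStalk x) ⟨⊥, Ideal.isPrime_bot⟩ ⤳ m' := by
    obtain ⟨p, hp⟩ : m' ∈ Set.range (X.fromSpecStalk x) := by rw [Scheme.range_fromSpecStalk]; exact h'
    rw [← hp]
    refine Specializes.map ?_ (X.fromSpecStalk x).continuous
    exact (PrimeSpectrum.le_iff_specializes _ _).1 bot_le
  rw [← hm _ h1, ← hm' _ h2]

end Groth.Agent.Ega2.H286.GenPts
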