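import Groth.Agent.Ega2.H286.NormLE
import Groth.Agent.Ega2.H292.NormData

/-!
# The norm of a finite surjective morphism onto a reduced Noetherian scheme, when characteristic polynomials exist locally
-/

set_option autoImplicit false
universe u

open CategoryTheory CategoryTheory.Limits AlgebraicGeometry TopologicalSpace Opposite Polynomial

namespace Groth.Agent.Ega2.H286.NormGlob

open Groth.Agent.Fdesc.LocGen Groth.Agent.Ega2.H286.GenPts Groth.Agent.Ega2.H286.PushStalk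
open Groth.Agent.Ega2.H286.NormPt Groth.Agent.Ega2.H286.NormLE

variable {X X' : Scheme.{u}} (g : X' ⟶ X) [IsFinite g] [IsReduced X]

/-- `a` is the norm of `b`, of degree `n`. -/
def IsN (n : ℕ) {V : X.Opens} (b : Γ(X', g ⁻¹ᵁ V)) (a : Γ(X, V)) : Prop :=
  ∀ m (hmV : m ∈ V), IsMP m → gm hmV a = nmm g m (ρ g hmV b) ^ (n / deg g m)

variable {g}

omit [IsFinite g] in
theorem IsN.unique {n : ℕ} {V : X.Opens} {b : Γ(X', g ⁻¹ᵁ V)} {a a' : Γ(X, V)} (h : IsN g n b a)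
    (h' : IsN g n b a') : a = a' :=
  eq_of_forall_isMP fun m hmV hm ↦ by rw [h m hmV hm, h' m hmV hm]

omit [IsFinite g] [IsReduced X] in
theorem IsN.res {n : ℕ} {V W : X.Opens} {b : Γ(X', g ⁻¹ᵁ V)} {a : Γ(X, V)} (h : IsN g n b a) (hW : W ≤ V) :
    IsN g n (rs g hW b) (ores hW a) := by
  intro m hmW hm
  rw [gm_ores, h m (hW hmW) hm, ρ_rs]

omit [IsFinite g] [IsReduced X] in
theorem isN_of_cover {n : ℕ} {ι : Type*} {V : X.Opens} (U : ι → X.Opens) (hU : ∀ i, U i ≤ V)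
    (hcover : V ≤ ⨆ i, U i) {b : Γ(X', g ⁻¹ᵁ V)} {a : Γ(X, V)}
    (h : ∀ i, IsN g n (rs g (hU i) b) (ores (hU i) a)) : IsN g n b a := by
  intro m hmV hm
  obtain ⟨i, hi⟩ := Opens.mem_iSup.1 (hcover hmV)
  have h1 := h i m hi hm
  rwa [gm_ores, ρ_rs] at h1

/-- The norm, from a local characteristic polynomial. -/
theorem isN_of_cp {n : ℕ} {W : X.Opens} {b : Γ(X', g ⁻¹ᵁ W)}
    {P : Γ(X, W)[X]} (hP : P.Monic)
    (h : ∀ m (hmW : m ∈ W) (hm : IsMP m), P.map (gm hmW) = cpm g hm (ρ g hmW b)) :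
    IsN g n b (((-1) ^ P.natDegree * P.coeff 0) ^ (n / P.natDegree)) := by
  intro m hmW hm
  have hd : P.natDegree = deg g m := by
    have : Nontrivial (X.presheaf.stalk m) := inferInstance
    rw [← natDegree_cpm g hm (ρ g hmW b), ← h m hmW hm, hP.natDegree_map]
  rw [nmm_eq g hm, ← h m hmW hm, coeff_map, hd, map_pow, map_mul, map_pow, map_neg, map_one]

/-- Existence of the norm. -/
theorem exists_isN {n : ℕ} (hn : ∀ m : X, IsMP m → deg g m ∣ n) {V : X.Opens} (b : Γ(X', g ⁻¹ᵁ V))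
    (h : ∀ x ∈ V, HasCp g b x) : ∃ a : Γ(X, V), IsN g n b a := by
  have h1 : ∀ x : V, ∃ (W : X.Opens) (hWV : W ≤ V) (a : Γ(X, W)), x.1 ∈ W ∧ IsN g n (rs g hWV b) a := by
    intro x
    obtain ⟨W, hWV, hxW, P, hP, hm⟩ := h x.1 x.2
    exact ⟨W, hWV, _, hxW, isN_of_cp hP (fun m hmW hmp ↦ by rw [ρ_rs]; exact hm m hmW hmp)⟩
  choose W hWV a hxW ha using h1
  have hcover : V ≤ ⨆ x, W x := fun x hx ↦ Opens.mem_iSup.2 ⟨⟨x, hx⟩, hxW _⟩
  obtain ⟨t, ht⟩ := ores_glue W hWV hcover a (by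
    intro i j
    apply IsN.unique (n := n) (b := rs g (inf_le_left.trans (hWV i)) b) (g := g)
    · have := (ha i).res (inf_le_left : W i ⊓ W j ≤ W i)
      rwa [ores_ores] at this
    · have := (ha j).res (inf_le_right : W i ⊓ W j ≤ W j)
      rwa [ores_ores] at this)
  refine ⟨t, isN_of_cover W hWV hcover fun i ↦ ?_⟩
  rw [ht]
  exact ha i

/-- If the norm of `b` does not vanish at `x` then `b` does not vanish at some point over `x`. -/
theorem exists_mem_of_isN [Surjective g] {n : ℕ} (hn0 : 0 < n) (hn : ∀ m : X, IsMP m → deg g m ∣ n) {V : X.Opens}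
    {b : Γ(X', g ⁻¹ᵁ V)} {a : Γ(X, V)} (hab : IsN g n b a) {x : X} (hx : HasCp g b x)
    (hxa : x ∈ X.basicOpen a) : ∃ y : X', g y = x ∧ y ∈ X'.basicOpen b := by
  obtain ⟨W, hWV, hxW, P, hP, hm⟩ := hx
  have hN := isN_of_cp (n := n) (g := g) (b := rs g hWV b) hP
    (fun m hmW hmp ↦ by rw [ρ_rs]; exact hm m hmW hmp)
  have h1 : ores hWV a = ((-1) ^ P.natDegree * P.coeff 0) ^ (n / P.natDegree) := (hab.res hWV).unique hN
  obtain ⟨m, hmx, hmp⟩ := exists_isMP x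
  have hmW : m ∈ W := mem_of_specializes hmx hxW
  have hd : P.natDegree = deg g m := by
    rw [← natDegree_cpm g hmp (ρ g (hWV hmW) b), ← hm m hmW hmp, hP.natDegree_map]
  have hpos : n / P.natDegree ≠ 0 := by
    rw [hd]
    exact (Nat.div_pos (Nat.le_of_dvd hn0 (hn m hmp)) (deg_pos g hmp)).ne'
  -- the constant term is a unit at `x`
  have hu : IsUnit (gm hxW (P.coeff 0)) := by
    have h2 : IsUnit (gm (hWV hxW) a) := (isUnit_gm_iff _ _).2 hxa
    rw [← gm_ores hWV hxW, h1, map_pow, isUnit_pow_iff hpos, map_mul] at h2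
    exact isUnit_of_mul_isUnit_right h2
  let φ := (g.app W).hom
  let b' := rs g hWV b
  let t : Γ(X', g ⁻¹ᵁ W) := P.eval₂ φ b'
  have ht : t = b' * P.divX.eval₂ φ b' + φ (P.coeff 0) := by
    change P.eval₂ φ b' = _
    conv_lhs => rw [← divX_mul_X_add P]
    rw [eval₂_add, eval₂_mul, eval₂_X, eval₂_C, mul_comm]
  have hρt : ρ g hmW t = ρ g hmW 0 := by
    change ρ g hmW (P.eval₂ φ b') = _
    rw [hom_eval₂, map_zero]
    have h3 : (ρ g hmW).comp φ = (κ g m).comp (gm hmW) := by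
      ext c
      exact (κ_gm g hmW c).symm
    rw [h3, ← eval₂_map, hm m hmW hmp, ρ_rs]
    exact eval₂_cpm g hmp _
  obtain ⟨W', hW'W, hmW', h0⟩ := exists_rs_eq g hmW hρt
  obtain ⟨y', hy'⟩ := g.surjective m
  have hspec : g y' ⤳ x := by rw [hy']; exact hmx
  obtain ⟨y, hyy', hyx⟩ := g.isClosedMap.specializingMap hspec
  refine ⟨y, hyx, ?_⟩
  by_contra hcon
  have hyW : y ∈ g ⁻¹ᵁ W := by
    change g y ∈ W
    rwa [hyx]
  have hyb : ¬ IsUnit (gm (X := X') hyW b') := by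
    intro h
    rw [isUnit_gm_iff] at h
    have : X'.basicOpen (ores (g.preimage_mono hWV) b) ≤ X'.basicOpen b := by
      change X'.basicOpen (X'.presheaf.map _ b) ≤ _
      rw [Scheme.basicOpen_res]
      exact inf_le_right
    exact hcon (this h)
  have hyu : IsUnit (gm (X := X') hyW (φ (P.coeff 0))) := by
    rw [isUnit_gm_iff]
    have h3 : y ∈ g ⁻¹ᵁ (X.basicOpen (P.coeff 0)) := by
      change g y ∈ X.basicOpen (P.coeff 0)
      rw [hyx, ← isUnit_gm_iff hxW]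
      exact hu
    rwa [Scheme.preimage_basicOpen] at h3
  have hyt : IsUnit (gm (X := X') hyW t) := by
    by_contra hnt
    have h3 : gm (X := X') hyW (φ (P.coeff 0)) = gm (X := X') hyW t -
        gm (X := X') hyW b' * gm (X := X') hyW (P.divX.eval₂ φ b') := by
      rw [ht, map_add, map_mul]; ring
    rw [h3] at hyu
    have h4 : gm (X := X') hyW t ∈ IsLocalRing.maximalIdeal (X'.presheaf.stalk y) := hnt
    have h5 : gm (X := X') hyW b' ∈ IsLocalRing.maximalIdeal (X'.presheaf.stalk y) := hyb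
    exact (sub_mem h4 (Ideal.mul_mem_right _ _ h5)) hyu
  rw [isUnit_gm_iff] at hyt
  have hy't : y' ∈ X'.basicOpen t := mem_of_specializes hyy' hyt
  have hy'W' : y' ∈ g ⁻¹ᵁ W' := by
    change g y' ∈ W'
    rwa [hy']
  rw [← isUnit_gm_iff (X := X') ((g.preimage_mono hW'W) hy'W'), ← gm_ores (g.preimage_mono hW'W) hy'W', h0,
    map_zero, map_zero] at hy't
  exact not_isUnit_zero hy't

/-- The norm map. -/
noncomputable def N {n : ℕ} (hn : ∀ m : X, IsMP m → deg g m ∣ n)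
    (hcp : ∀ (V : X.Opens) (b : Γ(X', g ⁻¹ᵁ V)) (x : X), x ∈ V → HasCp g b x) (V : X.Opens) :
    Γ(X', g ⁻¹ᵁ V) →* Γ(X, V) where
  toFun b := (exists_isN hn b (hcp V b)).choose
  map_one' := by
    apply IsN.unique (exists_isN hn _ (hcp V 1)).choose_spec
    intro m hmV hm
    rw [map_one, map_one, map_one, one_pow]
  map_mul' b b' := by
    apply IsN.unique (exists_isN hn _ (hcp V (b * b'))).choose_spec
    intro m hmV hm
    rw [map_mul, map_mul, map_mul, mul_pow, (exists_isN hn _ (hcp V b)).choose_spec m hmV hm,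
      (exists_isN hn _ (hcp V b')).choose_spec m hmV hm]

theorem isN_N {n : ℕ} (hn : ∀ m : X, IsMP m → deg g m ∣ n)
    (hcp : ∀ (V : X.Opens) (b : Γ(X', g ⁻¹ᵁ V)) (x : X), x ∈ V → HasCp g b x) (V : X.Opens)
    (b : Γ(X', g ⁻¹ᵁ V)) : IsN g n b (N hn hcp V b) :=
  (exists_isN hn b (hcp V b)).choose_spec

/-- The norm datum. -/
noncomputable def normData [Surjective g] {n : ℕ} (hn0 : 0 < n) (hn : ∀ m : X, IsMP m → deg g m ∣ n)
    (hcp : ∀ (V : X.Opens) (b : Γ(X', g ⁻¹ᵁ V)) (x : X), x ∈ V → HasCp g b x) :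
    H292.NormData.NormData g (𝟙 X) n where
  P V := IsAffineOpen V
  isAffineOpen h := h
  basis U x hx := by
    obtain ⟨V, hV, hxV, hVU⟩ := exists_isAffineOpen_mem_and_subset (x := x) (U := U) hx
    exact ⟨V, hxV, hVU, hV⟩
  N V _ := N hn hcp V
  N_res {V V'} hV hV' i b := IsN.unique (isN_N hn hcp V' _) ((isN_N hn hcp V b).res i)
  N_app {V} hV a := by
    apply IsN.unique (isN_N hn hcp V _)
    intro m hmV hm
    have h1 : gm hmV ((((𝟙 X : X ⟶ X).app V a : Γ(X, (𝟙 X : X ⟶ X) ⁻¹ᵁ V)) ^ n : Γ(X, V)) : Γ(X, V)) =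
        gm hmV a ^ n := map_pow _ _ _
    rw [← κ_gm, nmm_κ g hm, ← pow_mul, Nat.mul_div_cancel' (hn m hm)]
    exact h1
  exists_mem {V} hV b z hz hzb := exists_mem_of_isN hn0 hn (isN_N hn hcp V b) (hcp V b z hz) hzb

theorem exists_normData [Surjective g] [NoetherianSpace X]
    (hcp : ∀ (V : X.Opens) (b : Γ(X', g ⁻¹ᵁ V)) (x : X), x ∈ V → HasCp g b x) :
    ∃ n, 0 < n ∧ Nonempty (H292.NormData.NormData g (𝟙 X) n) := by
  classical
  let n : ℕ := ∏ m ∈ (finite_isMP (X := X)).toFinset, deg g m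
  have hn0 : 0 < n := Finset.prod_pos fun m hm ↦ deg_pos g (by simpa using hm)
  exact ⟨n, hn0, ⟨normData hn0 (fun m hm ↦ Finset.dvd_prod_of_mem _ (by simpa using hm)) hcp⟩⟩

end Groth.Agent.Ega2.H286.NormGlob
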