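import Mathlib.LinearAlgebra.Eigenspace.Charpoly
import Mathlib.RingTheory.Polynomial.IsIntegral
import Mathlib.LinearAlgebra.Charpoly.BaseChange
import Mathlib.RingTheory.IntegralClosure.IntegrallyClosed
import Mathlib.FieldTheory.IsAlgClosed.AlgebraicClosure
import Mathlib.LinearAlgebra.Eigenspace.Minpoly

/-!
# Characteristic polynomials of integral elements of a finite algebra over a field

`E` a finite algebra over a field `K` (not necessarily reduced), `b ∈ E`.  If `b` is integral over a subring `A` of `K`
then so are the coefficients of the characteristic polynomial of `b`.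
-/

set_option autoImplicit false

namespace Groth.Agent.Ega2.H286.NormInt

open Polynomial Module TensorProduct

/-- The characteristic polynomial of multiplication by `b`. -/
noncomputable abbrev cp (K E : Type*) [CommRing K] [CommRing E] [Algebra K E] [Module.Finite K E]
    [Module.Free K E] (b : E) : K[X] :=
  (Algebra.lmul K E b).charpoly

theorem isIntegral_coeff_cp {A K E : Type*} [CommRing A] [Field K] [Algebra A K] [CommRing E] [Algebra K E]
    [Algebra A E] [IsScalarTower A K E] [Module.Finite K E] {b : E} (hb : IsIntegral A b) (i : ℕ) :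
    IsIntegral A ((cp K E b).coeff i) := by
  obtain ⟨Q, hQ, hQb⟩ := hb
  let C := AlgebraicClosure K
  let φ : End K E := Algebra.lmul K E b
  have h1 : (φ.baseChange C).charpoly = (cp K E b).map (algebraMap K C) := φ.charpoly_baseChange C
  have h2 : ∀ x : C, ((cp K E b).map (algebraMap K C)).IsRoot x → IsIntegral A x := by
    intro x hx
    rw [← h1, ← End.hasEigenvalue_iff_isRoot_charpoly] at hx
    obtain ⟨v, hv⟩ := hx.exists_hasEigenvector
    refine ⟨Q, hQ, ?_⟩
    have h3 : aeval (φ.baseChange C) (Q.map (algebraMap A C)) v = (Q.map (algebraMap A C)).eval x • v :=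
      Module.End.aeval_apply_of_hasEigenvector hv
    have h4 : aeval φ (Q.map (algebraMap A K)) = 0 := by
      have h5 : aeval φ (Q.map (algebraMap A K)) = Algebra.lmul K E (aeval b (Q.map (algebraMap A K))) :=
        aeval_algHom_apply (Algebra.lmul K E) b (Q.map (algebraMap A K))
      rw [h5, aeval_map_algebraMap]
      have : aeval b Q = 0 := hQb
      rw [this, map_zero]
    have h6 : aeval (φ.baseChange C) (Q.map (algebraMap A C)) = 0 := by
      have h7 : aeval (φ.baseChange C) (Q.map (algebraMap A C)) =
          (aeval φ (Q.map (algebraMap A K))).baseChange C := by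
        have h8 : Q.map (algebraMap A C) = (Q.map (algebraMap A K)).map (algebraMap K C) := by
          rw [Polynomial.map_map, ← IsScalarTower.algebraMap_eq]
        rw [h8, aeval_map_algebraMap]
        exact aeval_algHom_apply (Module.End.baseChangeHom K C E) φ (Q.map (algebraMap A K))
      rw [h7, h4, LinearMap.baseChange_zero]
    rw [h6, LinearMap.zero_apply] at h3
    have h9 := (smul_eq_zero.1 h3.symm).resolve_right hv.2
    rwa [eval_map] at h9
  have h3 : IsIntegral A (((cp K E b).map (algebraMap K C)).coeff i) := by
    refine isIntegral_coeff_of_factors _ ?_ (IsAlgClosed.splits _) h2 i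
    rw [((LinearMap.charpoly_monic φ).map _).leadingCoeff]
    exact isIntegral_one
  rw [coeff_map] at h3
  exact (isIntegral_algebraMap_iff (FaithfulSMul.algebraMap_injective K C)).1 h3

/-- Over an integrally closed domain the characteristic polynomial of an integral element has coefficients in the domain. -/
theorem exists_map_eq_cp {A K E : Type*} [CommRing A] [IsDomain A] [IsIntegrallyClosed A] [Field K] [Algebra A K]
    [IsFractionRing A K] [CommRing E] [Algebra K E] [Module.Finite K E] {b : E}
    (hb : ((algebraMap K E).comp (algebraMap A K)).IsIntegralElem b) :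
    ∃ P : A[X], P.Monic ∧ P.map (algebraMap A K) = cp K E b := by
  let _ : Algebra A E := ((algebraMap K E).comp (algebraMap A K)).toAlgebra
  have : IsScalarTower A K E := IsScalarTower.of_algebraMap_eq' rfl
  have h1 : ∀ i, ∃ a : A, algebraMap A K a = (cp K E b).coeff i := fun i ↦
    IsIntegrallyClosed.isIntegral_iff.1 (isIntegral_coeff_cp (A := A) (K := K) hb i)
  have h2 : cp K E b ∈ Polynomial.lifts (algebraMap A K) := by
    rw [Polynomial.lifts_iff_coeff_lifts]
    exact fun i ↦ h1 i
  obtain ⟨P, hP, -, hPm⟩ := lifts_and_natDegree_eq_and_monic h2 (LinearMap.charpoly_monic _)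
  exact ⟨P, hPm, hP⟩

end Groth.Agent.Ega2.H286.NormInt
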