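import Groth.Agent.Ega2.H286.NormPt

/-!
# Local existence of the characteristic polynomial: normal points
-/

set_option autoImplicit false
universe u

open CategoryTheory CategoryTheory.Limits AlgebraicGeometry TopologicalSpace Opposite Polynomial

namespace Groth.Agent.Ega2.H286.NormLE

open Groth.Agent.Fdesc.LocGen Groth.Agent.Ega2.H286.GenPts Groth.Agent.Ega2.H286.PushStalk
open Groth.Agent.Ega2.H286.NormPt

variable {X X' : Scheme.{u}}

/-- Finitely many germs come from sections over a common neighbourhood. -/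
theorem exists_lift_finite {V : X.Opens} {x : X} (hx : x ∈ V) {n : ℕ} (c : Fin n → X.presheaf.stalk x) :
    ∃ (W : X.Opens) (_ : W ≤ V) (hxW : x ∈ W) (a : Fin n → Γ(X, W)), ∀ i, gm hxW (a i) = c i := by
  classical
  choose U hUV hxU a ha using fun i ↦ exists_gm_eq V hx (c i)
  have hxW : x ∈ (Finset.univ.inf U ⊓ V : X.Opens) := by
    refine ⟨?_, hx⟩
    have h1 : ∀ s : Finset (Fin n), x ∈ (s.inf U : X.Opens) := by
      intro s
      induction s using Finset.induction_on with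
      | empty => exact trivial
      | insert i s _ ih => rw [Finset.inf_insert]; exact ⟨hxU i, ih⟩
    exact h1 _
  refine ⟨Finset.univ.inf U ⊓ V, inf_le_right, hxW, fun i ↦
    ores (inf_le_left.trans (Finset.inf_le (Finset.mem_univ i))) (a i), fun i ↦ ?_⟩
  rw [gm_ores, ha]

/-- A monic polynomial over the local ring is the germ of a monic polynomial. -/
theorem exists_lift_monic {V : X.Opens} {x : X} (hx : x ∈ V) {P : (X.presheaf.stalk x)[X]} (hP : P.Monic) :
    ∃ (W : X.Opens) (_ : W ≤ V) (hxW : x ∈ W) (Q : Γ(X, W)[X]), Q.Monic ∧ Q.map (gm hxW) = P := by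
  obtain ⟨W, hWV, hxW, a, ha⟩ := exists_lift_finite hx (n := P.natDegree) (fun i ↦ P.coeff i)
  have : Nontrivial Γ(X, W) := (gm hxW).domain_nontrivial
  refine ⟨W, hWV, hxW, Polynomial.X ^ P.natDegree + ∑ i : Fin P.natDegree, C (a i) * Polynomial.X ^ (i : ℕ), ?_, ?_⟩
  · refine monic_X_pow_add ?_
    refine (degree_sum_le _ _).trans_lt ?_
    rw [Finset.sup_lt_iff (WithBot.bot_lt_coe _)]
    intro i _
    exact (degree_C_mul_X_pow_le _ _).trans_lt (by exact_mod_cast i.2)
  · conv_rhs => rw [hP.as_sum]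
    rw [Polynomial.map_add, Polynomial.map_pow, map_X, Polynomial.map_sum, ← Fin.sum_univ_eq_sum_range
      (fun i ↦ C (P.coeff i) * Polynomial.X ^ i)]
    congr 1
    refine Finset.sum_congr rfl fun i _ ↦ ?_
    rw [Polynomial.map_mul, map_C, Polynomial.map_pow, map_X, ha]

/-- A neighbourhood of `x` containing only the maximal points which are generizations of `x`. -/
theorem exists_nhd_isMP [NoetherianSpace X] {V : X.Opens} {x : X} (hx : x ∈ V) :
    ∃ (W : X.Opens) (_ : W ≤ V), x ∈ W ∧ ∀ m ∈ W, IsMP m → m ⤳ x := by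
  have hcl : IsClosed (⋃ m ∈ {m : X | IsMP m ∧ ¬ m ⤳ x}, closure ({m} : Set X)) :=
    Set.Finite.isClosed_biUnion (finite_isMP.subset fun m hm ↦ hm.1) fun _ _ ↦ isClosed_closure
  refine ⟨V ⊓ ⟨_, hcl.isOpen_compl⟩, inf_le_left, ⟨hx, ?_⟩, ?_⟩
  · intro hmem
    simp only [Set.mem_iUnion] at hmem
    obtain ⟨m, hm, hxm⟩ := hmem
    exact hm.2 (specializes_iff_mem_closure.2 hxm)
  · intro m hm hmp
    by_contra hcon
    exact hm.2 (Set.mem_biUnion (show m ∈ {m : X | IsMP m ∧ ¬ m ⤳ x} from ⟨hmp, hcon⟩) (subset_closure rfl))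

variable (g : X' ⟶ X) [IsFinite g] [IsReduced X]

/-- The characteristic polynomial of `b` exists over a neighbourhood of `x`. -/
def HasCp {V : X.Opens} (b : Γ(X', g ⁻¹ᵁ V)) (x : X) : Prop :=
  ∃ (W : X.Opens) (hWV : W ≤ V), x ∈ W ∧ ∃ P : Γ(X, W)[X], P.Monic ∧
    ∀ m (hmW : m ∈ W) (hm : IsMP m), P.map (gm hmW) = cpm g hm (ρ g (hWV hmW) b)

theorem hasCp_of_normal [NoetherianSpace X] {V : X.Opens} (b : Γ(X', g ⁻¹ᵁ V)) {x : X} (hx : x ∈ V)
    [IsDomain (X.presheaf.stalk x)] [IsIntegrallyClosed (X.presheaf.stalk x)] : HasCp g b x := by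
  obtain ⟨m, hmx, hm⟩ := exists_isMP x
  obtain ⟨V', hV', hxV', hle⟩ := exists_isAffineOpen_mem_and_subset (x := x) (U := V) hx
  have hle' : V' ≤ V := hle
  have hmV' : m ∈ V' := mem_of_specializes hmx hxV'
  have hint : ((κ g m).comp (sp hmx)).IsIntegralElem (ρ g (hle' hmV') b) := by
    have h1 : (g.app V').hom.IsIntegral := (IsFinite.finite_app g V' hV').to_isIntegral
    obtain ⟨Q, hQ, hQ0⟩ := h1 (rs g hle' b)
    refine ⟨Q.map (gm hxV'), hQ.map _, ?_⟩
    rw [eval₂_map]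
    have h2 : ((κ g m).comp (sp hmx)).comp (gm hxV') = (ρ g hmV').comp (g.app V').hom := by
      ext a
      simp only [RingHom.comp_apply]
      rw [sp_gm, κ_gm]
    have h3 := congrArg (ρ g hmV') hQ0
    rw [hom_eval₂, ρ_rs, map_zero] at h3
    rw [h2]
    exact h3
  obtain ⟨Px, hPx, hPm⟩ := exists_cpm_normal g hm hmx hint
  obtain ⟨W, hWV, hxW, Q, hQ, hQP⟩ := exists_lift_monic hxV' hPx
  obtain ⟨W', hW'W, hxW', hW'⟩ := exists_nhd_isMP hxW
  refine ⟨W', hW'W.trans (hWV.trans hle'), hxW', Q.map (ores hW'W), hQ.map _, ?_⟩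
  intro m' hm'W hm'
  obtain rfl : m' = m := isMP_unique (hW' m' hm'W hm') hmx hm' hm
  rw [Polynomial.map_map]
  have h2 : (gm hm'W).comp (ores hW'W) = (sp hmx).comp (gm hxW) := by
    ext a
    simp only [RingHom.comp_apply]
    rw [sp_gm, gm_ores]
  rw [h2, ← Polynomial.map_map, hQP, hPm]

end Groth.Agent.Ega2.H286.NormLE
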