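import Groth.Agent.Ega2.H286.PushStalk
import Groth.Agent.Ega2.H286.CpBase
import Mathlib.RingTheory.Norm.Basic

/-!
# Characteristic polynomials and norms at the maximal points

`g : X' ⟶ X` finite, `X` reduced, `m` a maximal point of `X`: `O_{X,m}` is a field over which `(g_* O_X')_m` is a finite
algebra.
-/

set_option autoImplicit false
universe u

open CategoryTheory CategoryTheory.Limits AlgebraicGeometry TopologicalSpace Opposite Polynomial

namespace Groth.Agent.Ega2.H286.NormPt

open Groth.Agent.Fdesc.LocGen Groth.Agent.Ega2.H286.GenPts Groth.Agent.Ega2.H286.PushStalk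
open Groth.Agent.Ega2.H286.NormInt Groth.Agent.Ega2.H286.CpBase

variable {X X' : Scheme.{u}} (g : X' ⟶ X) [IsFinite g] [IsReduced X] {m : X} (hm : IsMP m)

include hm in
theorem free_κ : letI := (κ g m).toAlgebra; Module.Free (X.presheaf.stalk m) (Est g m) := by
  let _ := (isField_stalk hm).toField
  let _ := (κ g m).toAlgebra
  exact Module.Free.of_divisionRing _ _

/-- The characteristic polynomial of an element of `(g_* O_X')_m`. -/
noncomputable def cpm (b : Est g m) : (X.presheaf.stalk m)[X] :=
  letI := (κ g m).toAlgebra
  haveI : Module.Finite (X.presheaf.stalk m) (Est g m) := finite_κ g m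
  haveI : Module.Free (X.presheaf.stalk m) (Est g m) := free_κ g hm
  cp (X.presheaf.stalk m) (Est g m) b

/-- The norm of an element of `(g_* O_X')_m`. -/
noncomputable def nmm (m : X) : Est g m →* X.presheaf.stalk m :=
  letI := (κ g m).toAlgebra
  Algebra.norm (X.presheaf.stalk m)

/-- The degree at `m`. -/
noncomputable def deg (m : X) : ℕ :=
  letI := (κ g m).toAlgebra
  Module.finrank (X.presheaf.stalk m) (Est g m)

include hm in
theorem deg_pos [Surjective g] : 0 < deg g m := by
  obtain ⟨x', hx'⟩ := g.surjective m
  have : Nontrivial (Est g m) := by rw [← hx']; exact nontrivial_Est g x'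
  let _ := (isField_stalk hm).toField
  let _ := (κ g m).toAlgebra
  have : Module.Finite (X.presheaf.stalk m) (Est g m) := finite_κ g m
  exact Module.finrank_pos

theorem monic_cpm (b : Est g m) : (cpm g hm b).Monic := by
  let _ := (κ g m).toAlgebra
  have : Module.Finite (X.presheaf.stalk m) (Est g m) := finite_κ g m
  have : Module.Free (X.presheaf.stalk m) (Est g m) := free_κ g hm
  exact LinearMap.charpoly_monic _

theorem natDegree_cpm (b : Est g m) : (cpm g hm b).natDegree = deg g m := by
  let _ := (κ g m).toAlgebra
  have : Module.Finite (X.presheaf.stalk m) (Est g m) := finite_κ g m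
  have : Module.Free (X.presheaf.stalk m) (Est g m) := free_κ g hm
  exact LinearMap.charpoly_natDegree _

theorem eval₂_cpm (b : Est g m) : (cpm g hm b).eval₂ (κ g m) b = 0 := by
  let _ := (κ g m).toAlgebra
  have : Module.Finite (X.presheaf.stalk m) (Est g m) := finite_κ g m
  have : Module.Free (X.presheaf.stalk m) (Est g m) := free_κ g hm
  exact Algebra.aeval_self_charpoly_lmul (R := X.presheaf.stalk m) b

theorem nmm_eq (b : Est g m) : nmm g m b = (-1) ^ deg g m * (cpm g hm b).coeff 0 := by
  let _ := (κ g m).toAlgebra
  have : Module.Finite (X.presheaf.stalk m) (Est g m) := finite_κ g m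
  have : Module.Free (X.presheaf.stalk m) (Est g m) := free_κ g hm
  exact LinearMap.det_eq_sign_charpoly_coeff _

include hm in
theorem nmm_κ (a : X.presheaf.stalk m) : nmm g m (κ g m a) = a ^ deg g m := by
  let _ := (κ g m).toAlgebra
  have : Module.Finite (X.presheaf.stalk m) (Est g m) := finite_κ g m
  have : Module.Free (X.presheaf.stalk m) (Est g m) := free_κ g hm
  exact Algebra.norm_algebraMap_of_basis (Module.Free.chooseBasis (X.presheaf.stalk m) (Est g m)) a |>.trans (by
    rw [deg, Module.finrank_eq_card_chooseBasisIndex])

/-- Over a normal point the characteristic polynomial of an integral element is defined over the local ring. -/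
theorem exists_cpm_normal {x : X} (h : m ⤳ x) [IsDomain (X.presheaf.stalk x)]
    [IsIntegrallyClosed (X.presheaf.stalk x)] {b : Est g m} (hb : ((κ g m).comp (sp h)).IsIntegralElem b) :
    ∃ P : (X.presheaf.stalk x)[X], P.Monic ∧ P.map (sp h) = cpm g hm b := by
  let _ := (isField_stalk hm).toField
  let _ := (κ g m).toAlgebra
  let _ := (sp h).toAlgebra
  have : Module.Finite (X.presheaf.stalk m) (Est g m) := finite_κ g m
  have := isFractionRing h (isField_stalk hm)
  exact exists_map_eq_cp (A := X.presheaf.stalk x) (K := X.presheaf.stalk m) (E := Est g m) hb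

end Groth.Agent.Ega2.H286.NormPt
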