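import Groth.Agent.Ega2.H286.GenPts
import Mathlib.AlgebraicGeometry.Morphisms.Finite

/-!
# Stalks of the algebra `g_* O_X'`
-/

set_option autoImplicit false
universe u

open CategoryTheory CategoryTheory.Limits AlgebraicGeometry TopologicalSpace Opposite

namespace Groth.Agent.Ega2.H286.PushStalk

open Groth.Agent.Fdesc.LocGen Groth.Agent.Ega2.H286.GenPts

variable {X X' : Scheme.{u}} (g : X' ⟶ X)

/-- The presheaf of rings `g_* O_X'`. -/
noncomputable abbrev pp : TopCat.Presheaf CommRingCat.{u} X :=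
  (TopCat.Presheaf.pushforward CommRingCat.{u} g.base).obj X'.presheaf

/-- The stalk of `g_* O_X'` at `x`. -/
noncomputable abbrev Est (x : X) : CommRingCat.{u} := (pp g).stalk x

/-- The germ of a section of `g_* O_X'`. -/
noncomputable def ρ {V : X.Opens} {x : X} (hx : x ∈ V) : Γ(X', g ⁻¹ᵁ V) →+* Est g x :=
  ((pp g).germ V x hx).hom

/-- The structure map `O_{X,x} → (g_* O_X')_x`. -/
noncomputable def κ (x : X) : X.presheaf.stalk x →+* Est g x :=
  ((TopCat.Presheaf.stalkFunctor CommRingCat.{u} x).map g.c).hom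

/-- Restriction of sections of `g_* O_X'`. -/
noncomputable abbrev rs {V W : X.Opens} (h : W ≤ V) : Γ(X', g ⁻¹ᵁ V) →+* Γ(X', g ⁻¹ᵁ W) :=
  ores (g.preimage_mono h)

theorem ρ_rs {V W : X.Opens} (h : W ≤ V) {x : X} (hx : x ∈ W) (b : Γ(X', g ⁻¹ᵁ V)) :
    ρ g hx (rs g h b) = ρ g (h hx) b :=
  (pp g).germ_res_apply (homOfLE h) _ hx b

theorem exists_ρ_eq (U : X.Opens) {x : X} (hx : x ∈ U) (e : Est g x) :
    ∃ (V : X.Opens) (_ : V ≤ U) (hxV : x ∈ V) (b : Γ(X', g ⁻¹ᵁ V)), ρ g hxV b = e := by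
  obtain ⟨V, hVU, hxV, a, ha⟩ := (pp g).exists_le_germ_eq e hx
  exact ⟨V, hVU, hxV, a, ha⟩

theorem exists_rs_eq {V : X.Opens} {x : X} (hx : x ∈ V) {a b : Γ(X', g ⁻¹ᵁ V)} (h : ρ g hx a = ρ g hx b) :
    ∃ (W : X.Opens) (hW : W ≤ V), x ∈ W ∧ rs g hW a = rs g hW b := by
  obtain ⟨W, hxW, i, j, hij⟩ := (pp g).germ_eq x hx hx a b h
  exact ⟨W, i.le, hxW, hij⟩

theorem κ_gm {V : X.Opens} {x : X} (hx : x ∈ V) (a : Γ(X, V)) :
    κ g x (gm hx a) = ρ g hx ((g.app V).hom a) :=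
  TopCat.Presheaf.stalkFunctor_map_germ_apply V x hx g.c a

theorem nontrivial_Est (x' : X') : Nontrivial (Est g (g x')) := by
  by_contra hcon
  rw [not_nontrivial_iff_subsingleton] at hcon
  have h1 : ρ g (V := ⊤) (x := g x') trivial 1 = ρ g (V := ⊤) trivial 0 := Subsingleton.elim _ _
  obtain ⟨W, hW, hxW, h⟩ := exists_rs_eq g _ h1
  rw [map_one, map_zero] at h
  have h2 := congrArg (gm (X := X') (V := g ⁻¹ᵁ W) (x := x') hxW) h
  rw [map_one, map_zero] at h2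
  exact one_ne_zero h2

section Affine

variable {g}
variable [IsAffineHom g]

theorem exists_pow_mul_eq {V : X.Opens} (hV : IsAffineOpen V) (s : Γ(X, V))
    (b : Γ(X', g ⁻¹ᵁ (X.basicOpen s))) :
    ∃ (k : ℕ) (b' : Γ(X', g ⁻¹ᵁ V)),
      rs g (X.basicOpen_le s) b' = rs g (X.basicOpen_le s) ((g.app V).hom s) ^ k * b := by
  have hV' := hV.preimage g
  have heq : g ⁻¹ᵁ (X.basicOpen s) = X'.basicOpen ((g.app V).hom s) := g.preimage_basicOpen s
  haveI := hV'.isLocalization_basicOpen ((g.app V).hom s)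
  have key : ∀ c : Γ(X', X'.basicOpen ((g.app V).hom s)), ∃ (k : ℕ) (b' : Γ(X', g ⁻¹ᵁ V)),
      ores (X'.basicOpen_le _) b' = ores (X'.basicOpen_le _) ((g.app V).hom s) ^ k * c := by
    intro c
    obtain ⟨⟨b', ⟨_, k, rfl⟩⟩, h⟩ := IsLocalization.surj (M := Submonoid.powers ((g.app V).hom s)) c
    refine ⟨k, b', ?_⟩
    rw [← map_pow, mul_comm]
    exact h.symm
  obtain ⟨k, b', h⟩ := key (ores heq.ge b)
  refine ⟨k, b', ?_⟩
  have h1 := congrArg (ores heq.le) h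
  rw [map_mul, map_pow, ores_ores, ores_ores, ores_ores, ores_refl] at h1
  exact h1

/-- Elements of the stalk of `g_* O_X'` as fractions. -/
theorem exists_mul_ρ_eq {V : X.Opens} (hV : IsAffineOpen V) {x : X} (hx : x ∈ V) (e : Est g x) :
    ∃ (s : Γ(X, V)) (b : Γ(X', g ⁻¹ᵁ V)), IsUnit (gm hx s) ∧ κ g x (gm hx s) * e = ρ g hx b := by
  obtain ⟨W, hWV, hxW, c, rfl⟩ := exists_ρ_eq g V hx e
  obtain ⟨s, hs, hxs⟩ := hV.exists_basicOpen_le (V := W) ⟨x, hxW⟩ hx
  obtain ⟨k, b, hb⟩ := exists_pow_mul_eq hV s (rs g hs c)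
  have hu : IsUnit (gm hx s) := (isUnit_gm_iff hx s).2 hxs
  refine ⟨s ^ k, b, by rw [map_pow]; exact hu.pow k, ?_⟩
  have h1 := congrArg (ρ g (V := X.basicOpen s) (x := x) hxs) hb
  rw [ρ_rs, map_mul, map_pow, ρ_rs, ρ_rs, ← κ_gm] at h1
  rw [h1, map_pow, map_pow]

end Affine

section Finite

variable [IsFinite g]

/-- The stalk of `g_* O_X'` is finite over the local ring. -/
theorem finite_κ (x : X) : (κ g x).Finite := by
  obtain ⟨V, hV, hxV, -⟩ := exists_isAffineOpen_mem_and_subset (x := x) (U := ⊤) trivial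
  have hfin : (g.app V).hom.Finite := IsFinite.finite_app g V hV
  letI := (g.app V).hom.toAlgebra
  letI := (κ g x).toAlgebra
  haveI : Module.Finite Γ(X, V) Γ(X', g ⁻¹ᵁ V) := hfin
  obtain ⟨S, hS⟩ := Module.Finite.fg_top (R := Γ(X, V)) (M := Γ(X', g ⁻¹ᵁ V))
  classical
  refine ⟨⟨S.image (ρ g hxV), ?_⟩⟩
  rw [eq_top_iff]
  intro e _
  obtain ⟨s, b, hs, hb⟩ := exists_mul_ρ_eq hV hxV e
  have h1 : ∀ c : Γ(X', g ⁻¹ᵁ V), ρ g hxV c ∈
      Submodule.span (X.presheaf.stalk x) ((S.image (ρ g hxV) : Finset (Est g x)) : Set (Est g x)) := by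
    intro c
    have hc : c ∈ Submodule.span Γ(X, V) (S : Set Γ(X', g ⁻¹ᵁ V)) := by rw [hS]; trivial
    induction hc using Submodule.span_induction with
    | mem y hy => exact Submodule.subset_span (by simpa using ⟨y, hy, rfl⟩)
    | zero => rw [map_zero]; exact zero_mem _
    | add y z _ _ hy hz => rw [map_add]; exact add_mem hy hz
    | smul a y _ hy =>
      rw [Algebra.smul_def, map_mul]
      have h2 : ρ g hxV (algebraMap Γ(X, V) Γ(X', g ⁻¹ᵁ V) a) = κ g x (gm hxV a) := (κ_gm g hxV a).symm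
      rw [h2]
      exact Submodule.smul_mem _ (gm hxV a) hy
  obtain ⟨t, ht⟩ := hs.exists_left_inv
  have h2 : e = t • ρ g hxV b := by
    change e = κ g x t * ρ g hxV b
    rw [← hb, ← mul_assoc, ← map_mul, ht, map_one, one_mul]
  rw [h2]
  exact Submodule.smul_mem _ _ (h1 b)

end Finite

end Groth.Agent.Ega2.H286.PushStalk
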